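import Cfsg.Agent.H288.DG.Tw
import Cfsg.Agent.H136.TwE6

/-!
# TEAM GEN: the torus data of `²E₆(q)` (helper288, for S4180; the generation is helper136's proof of S2406)
-/

set_option autoImplicit false
set_option linter.unusedSectionVars false

namespace Cfsg.Agent.H288.DG.TwE6

open Cfsg.Lie Cfsg.Agent.ChevalleyStructure.TwE6Basic Cfsg.Agent.H136 Cfsg.Agent.H136.TwE6
open Cfsg.Agent.ChevalleyStructure.Elts (hG nG xG coe_hG coe_xG hG_def nG_def wordG_cons wordG_nil eq_hG_iff
  hG_mem_diagonal nG_one_mem_monomial)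

universe u

variable {K : Type u} [Field K] {φ : K →+* K} {q : ℕ}

theorem gen [Fintype K] (hq : IsPrimePow q) (hK : Fintype.card K = q ^ 2)
    (hφ : ∀ t, φ t = t ^ q) (hqq : ∀ t : K, (t ^ q) ^ q = t) (M : Subgroup (GL chevE6.Idx K))
    (hM : chevE6.diagonalSubgroup K ⊓ twistedE6 K q ≤ M) (hb : P φ 1 * w K ∈ M) : twistedE6 K q ≤ M := by
  have hfix := twisted_le_fix φ hφ hqq
  have hφφ : ∀ t, φ (φ t) = t := by intro t; rw [hφ, hφ, hqq]
  have hq2 : 2 ≤ q := hq.two_le
  have hq3 : 2 ^ 2 ≤ q ^ 2 := Nat.pow_le_pow_left hq2 2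
  obtain ⟨c, hc⟩ := IsCyclic.exists_generator (α := Kˣ)
  have hc0 : (c : K) ≠ 0 := c.ne_zero
  have hord : orderOf c = q ^ 2 - 1 := by
    rw [orderOf_eq_card_of_forall_mem_zpowers hc, Nat.card_units, Nat.card_eq_fintype_card, hK]
  have hc2 : (c : K) ^ 2 ≠ 1 := by
    intro h1
    have h2 : c ^ 2 = 1 := Units.ext (by rw [Units.val_pow_eq_pow_val, h1, Units.val_one])
    have := Nat.le_of_dvd (by norm_num) (orderOf_dvd_of_pow_eq_one h2)
    omega
  have hc1 : (c : K) ≠ 1 := by
    intro h; apply hc2; rw [h, one_pow]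
  have hwT := w_mem (K := K) hφ
  have hhT := hh_mem (K := K) hφ (c : K)
  have ha : hh φ (c : K) ∈ M := hM ⟨hh_mem_diag hc0, hhT⟩
  obtain ⟨hXM, hwM⟩ := TwoGen.torus_trick M (XS φ) (h := hh φ (c : K)) (w := w K) (u := P φ 1) ha hb
    ⟨1, rfl⟩
    (by
      rintro _ ⟨t, rfl⟩
      exact ⟨_, h1_P hc0 t⟩)
    (by
      rintro _ ⟨t, rfl⟩
      refine ⟨(c : K) * t, ?_⟩
      have h := h1_P (φ := φ) hc0 ((c : K) * t)
      rw [inv_mul_cancel_left₀ hc0] at h
      rw [← h]; group)
    (irr hc)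
    ⟨P φ 1, ⟨1, rfl⟩, fun h => by
      have h2 := hh_P (φ := φ) hc0 1
      rw [h, mul_inv_cancel_right] at h2
      have h3 := P_inj h2
      rw [mul_one] at h3
      exact hc2 h3.symm⟩
    (by
      rintro _ ⟨t, rfl⟩
      exact ⟨_, hh_P hc0 t⟩)
    (diag_comm (hh_mem_diag hc0) (conj_mem_diag w_mono (hh_mem_diag hc0)))
    (fun h => by
      have h2 := h1_P (φ := φ) hc0 1
      rw [h, mul_inv_cancel_right] at h2
      have h3 := P_inj h2
      rw [mul_one] at h3
      exact hc1 (inv_eq_one.1 h3.symm))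
  have hwf : w K ∈ fix φ := hfix hwT
  obtain ⟨w1, w2, w3, w4, w5, w6, w7, r1, r2, r3, r4⟩ := W_vals
  have h36 : Short φ M 36 := by
    intro a b hab
    rw [r4] at hab ⊢
    change x 36 a * x 56 b ∈ fix φ at hab
    change x 36 a * x 56 b ∈ M
    rw [c56] at hab ⊢
    rw [fix56 hab]
    exact hXM ⟨b, rfl⟩
  have h29 : Short φ M 29 := by rw [← w1]; exact Short.iter hwM hwf h36 5
  have h15 : Short φ M 15 := by rw [← w2]; exact Short.iter hwM hwf h36 6
  have h40 : Short φ M 40 := by rw [← w3]; exact Short.iter hwM hwf h36 8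
  have h37 : Short φ M 37 := by rw [← w4]; exact Short.iter hwM hwf h36 11
  have h39 : Long φ M 39 := by
    refine long39 hφφ (fun v hv => FieldLem.exists_trace_two hq2 hK φ hφ hv) h40 h29 ?_
    have := pair_mem (K := K) (q := q) (1 : K) (rs := (29, 34)) (by simp)
    rw [one_pow] at this
    exact hfix this
  have h25 : Long φ M 25 := by rw [← w5]; exact Long.iter hwM hwf h39 5
  have h32 : Long φ M 32 := by rw [← w6]; exact Long.iter hwM hwf h39 6
  have h46 : Long φ M 46 := by rw [← w7]; exact Long.iter hwM hwf h39 11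
  rw [twisted_le_iff]
  constructor
  · intro t ht r hr
    have hf : x r t ∈ fix φ := hfix (single_mem ht hr)
    simp only [List.mem_cons, List.not_mem_nil, or_false] at hr
    rcases hr with rfl | rfl | rfl | rfl
    · exact h46 t hf
    · exact h25 t hf
    · exact h39 t hf
    · exact h32 t hf
  · intro t rs hr
    have hf : x rs.1 t * x rs.2 (t ^ q) ∈ fix φ := hfix (pair_mem t hr)
    simp only [List.mem_cons, List.not_mem_nil, or_false] at hr
    rcases hr with rfl | rfl | rfl | rfl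
    · rw [← hφ]
      exact hXM ⟨t, rfl⟩
    · exact h15 t (t ^ q) hf
    · have hcm : x 42 t * x 37 (t ^ q) = x 37 (t ^ q) * x 42 t :=
        comm_class (K := K) (i := 2) (r := 37) (s := 42) (by decide +kernel) (by decide +kernel) (by decide)
          (by decide +kernel) _ _
      change x 42 t * x 37 (t ^ q) ∈ fix φ at hf
      change x 42 t * x 37 (t ^ q) ∈ M
      rw [hcm] at hf ⊢
      exact h37 (t ^ q) t hf
    · exact h29 t (t ^ q) hf

theorem exp_diag [Fintype K] {g : GL chevE6.Idx K} (hg : g ∈ chevE6.diagonalSubgroup K) :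
    g ^ (Fintype.card K - 1) = 1 := by
  obtain ⟨d, hd⟩ := diag_of hg
  apply Units.ext
  rw [Units.val_pow_eq_pow_val, hd, Matrix.diagonal_pow, Units.val_one]
  have h1 : ∀ i, d i ≠ 0 := by
    intro i h0
    have h2 : (g : Matrix chevE6.Idx chevE6.Idx K) * ((g⁻¹ : GL chevE6.Idx K) : Matrix chevE6.Idx chevE6.Idx K) = 1 := by
      rw [← Units.val_mul, mul_inv_cancel, Units.val_one]
    have h3 := congrFun (congrFun h2 i) i
    rw [hd, Matrix.diagonal_mul, h0, zero_mul, Matrix.one_apply_eq] at h3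
    exact zero_ne_one h3
  rw [← Matrix.diagonal_one]
  congr 1
  funext i
  exact FiniteField.pow_card_sub_one_eq_one (d i) (h1 i)

/-- the torus data of `²E₆(q)` -/
theorem tor [Fintype K] (hq : IsPrimePow q) (hK : Fintype.card K = q ^ 2) (p : ℕ) [CharP K p] :
    Tor p ↥(twistedE6 K q) := by
  classical
  obtain ⟨φ, hφ, hqq⟩ := exists_frob hq hK
  have hPT : P φ 1 ∈ twistedE6 K q := by
    have := pair_mem (K := K) (q := q) (1 : K) (rs := (56, 36)) (by simp)
    rw [← hφ] at this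
    exact this
  refine Tw.tor_sub (A := chevE6.diagonalSubgroup K) (n := w K) (u := P φ 1)
    (Tw.not_dvd_of_exp (F := K) p _ fun g hg => exp_diag hg) (fun a ha => conj_mem_diag w_mono ha) (w_mem hφ) hPT
    (gen hq hK hφ hqq) ?_
  by_cases hp2 : p = 2
  · subst hp2
    refine Or.inl ⟨rfl, ?_, fun h => ?_⟩
    · rw [pow_two, P_add, CharTwo.add_self_eq_zero, P_zero]
    · rw [← P_zero (φ := φ)] at h
      exact one_ne_zero (P_inj h)
  · refine Or.inr ⟨hh φ (-1 : K), hh_mem_diag (neg_ne_zero.2 one_ne_zero), hh_mem hφ _, fun h => ?_, ?_⟩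
    · have h4 := hh_conj (φ := φ) (s := 42) (by norm_num) (c := (-1 : K)) (neg_ne_zero.2 one_ne_zero) 1
      have c1 : chevE6.cartan 0 42 = -1 ∧ chevE6.cartan 5 42 = 0 := by decide +kernel
      rw [h, one_mul, inv_one, mul_one, c1.1, c1.2, zpow_zero, zpow_neg_one, one_mul, mul_one, inv_neg, inv_one] at h4
      have h5 := x_injective (K := K) (r := 42) (by norm_num) h4
      have : CharP K 2 := by
        apply CharTwo.of_one_ne_zero_of_two_eq_zero one_ne_zero
        rw [← one_add_one_eq_two]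
        nth_rewrite 1 [h5]
        ring
      exact hp2 (CharP.eq K ‹_› this)
    · have h1 := hh_P (φ := φ) (c := (-1 : K)) (neg_ne_zero.2 one_ne_zero) 1
      rw [neg_one_sq, one_mul] at h1
      exact mul_inv_eq_iff_eq_mul.1 h1

end Cfsg.Agent.H288.DG.TwE6
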