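import Cfsg.Agent.H288.DG.TwD4
import Cfsg.Agent.H288.DG.TwE6

/-!
# TEAM GEN: `CohAt` for `³D₄(q)` and `²E₆(q)` in the defining characteristic (helper288, for S4180)
-/

set_option autoImplicit false

namespace Cfsg.Agent.H288.DG.TwRow

open Cfsg.Lie Cfsg.Agent.H891.DG Cfsg.Agent.H288.DG

universe u v

variable {T : Type u} [Group T] [Finite T] [IsSimpleGroup T] {K : Type v} [Field K] [Fintype K] {q : ℕ}

/-- `q` is a prime power -/
theorem isPrimePow_of {n : ℕ} (hn : n ≠ 0) (hK : Fintype.card K = q ^ n) : IsPrimePow q :=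
  (isPrimePow_pow_iff hn).1 (hK ▸ (FiniteField.isPrimePow_card K))

/-- **³D₄(q)** -/
theorem cohAt_twD4 (e : T ≃* ↥(twistedD4 K q)) (hK : Fintype.card K = q ^ 3) (p : ℕ) [CharP K p] : CohAt p T :=
  cohAt_of_tor (CharP.char_is_prime K p) ((TwD4.tor (isPrimePow_of (by norm_num) hK) hK p).congr e.symm)

/-- **²E₆(q)** -/
theorem cohAt_twE6 (e : T ≃* ↥(twistedE6 K q)) (hK : Fintype.card K = q ^ 2) (p : ℕ) [CharP K p] : CohAt p T :=
  cohAt_of_tor (CharP.char_is_prime K p) ((TwE6.tor (isPrimePow_of (by norm_num) hK) hK p).congr e.symm)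

end Cfsg.Agent.H288.DG.TwRow
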