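import Cfsg.Agent.H135.TwoGenTab
import Cfsg.Agent.ChevalleyStructure.NPerm
import Cfsg.Agent.H288.DG.Torus

/-!
# TEAM GEN: the torus data of the untwisted exceptional groups (helper288, for S4180)
-/

set_option autoImplicit false
set_option linter.unusedSectionVars false

namespace Cfsg.Agent.H288.DG.Untw

open Cfsg.Lie Cfsg.Agent.ChevalleyStructure.Elts Cfsg.Agent.H135.TwoG Cfsg.Agent.H288.DG

universe u

variable {F : Type u} [Field F] {D : ChevalleyDatum}

/-- conjugation by a torus element -/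
theorem conj_trick {G : Type*} [Group G] {M A : Subgroup G} (hA : A ≤ M) {w x h : G} (hw : ∀ a ∈ A, w * a * w⁻¹ ∈ A)
    (hh : h ∈ A) (hx : x * w ∈ M) : (h * x * h⁻¹) * ((h * (w * h⁻¹ * w⁻¹)) * x⁻¹ * (h * (w * h⁻¹ * w⁻¹))⁻¹) ∈ M := by
  have h1 : h * (w * h⁻¹ * w⁻¹) ∈ A := mul_mem hh (hw _ (inv_mem hh))
  have h2 : h * (x * w) * h⁻¹ * (x * w)⁻¹ ∈ M :=
    mul_mem (mul_mem (mul_mem (hA hh) hx) (inv_mem (hA hh))) (inv_mem hx)
  have h3 := mul_mem h2 (inv_mem (hA h1))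
  have e : h * (x * w) * h⁻¹ * (x * w)⁻¹ * (h * (w * h⁻¹ * w⁻¹))⁻¹ =
      (h * x * h⁻¹) * ((h * (w * h⁻¹ * w⁻¹)) * x⁻¹ * (h * (w * h⁻¹ * w⁻¹))⁻¹) := by group
  rwa [e] at h3

theorem hG_inv (hD : InList D) {i : ℕ} (hi : i < D.rank) (c : Fˣ) :
    (hG hD (D.simple i) (c : F))⁻¹ = hG hD (D.simple i) ((c⁻¹ : Fˣ) : F) := by
  rw [hG_eq_hh hD hi, hG_eq_hh hD hi, map_inv]

theorem h_mem (hD : InList D) {i : ℕ} (hi : i < D.rank) (c : Fˣ) :
    hG hD (D.simple i) (c : F) ∈ D.diagonalSubgroup F :=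
  hG_mem_diagonal hD (Cfsg.Agent.H135.TorusTab.simple_lt hD i hi) c.ne_zero

/-- the action of `h'' = h · w h⁻¹ w⁻¹` on a root element, `W s' = s` -/
theorem h2_conj (hD : InList D) {l : List ℕ} (hl : ∀ i ∈ l, i < D.rank) {i s s' : ℕ} (hi : i < D.rank)
    (hs' : s' < D.nroots) (hs : s < D.nroots) (hss : wact D l s' = s) (c : Fˣ) (t : F) :
    (hG hD (D.simple i) (c : F) * (wG hD F l * (hG hD (D.simple i) (c : F))⁻¹ * (wG hD F l)⁻¹)) * xG hD s t *
      (hG hD (D.simple i) (c : F) * (wG hD F l * (hG hD (D.simple i) (c : F))⁻¹ * (wG hD F l)⁻¹))⁻¹ =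
      xG hD s ((c : F) ^ (D.cartan i s) * (((c⁻¹ : Fˣ) : F) ^ (D.cartan i s') * t)) := by
  obtain ⟨η, hη, hwc0⟩ := wG_conj (F := F) hD hl hs'
  have hη2 : η * η = 1 := sq_one hη
  rw [hss] at hwc0
  have hwc' : (wG hD F l)⁻¹ * xG hD s t * wG hD F l = xG hD s' (η * t) := by
    have h := hwc0 (η * t)
    rw [← mul_assoc, hη2, one_mul] at h
    rw [← h]; group
  set h := hG hD (D.simple i) (c : F) with hh
  set w := wG hD F l with hw
  calc (h * (w * h⁻¹ * w⁻¹)) * xG hD s t * (h * (w * h⁻¹ * w⁻¹))⁻¹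
      = h * (w * (h⁻¹ * (w⁻¹ * xG hD s t * w) * (h⁻¹)⁻¹) * w⁻¹) * h⁻¹ := by group
    _ = _ := by
      rw [hwc', hh, hG_inv hD hi, h_conj hD hi hs' (c⁻¹).ne_zero, hwc0]
      have e : η * (((c⁻¹ : Fˣ) : F) ^ D.cartan i s' * (η * t)) = ((c⁻¹ : Fˣ) : F) ^ D.cartan i s' * t := by
        calc η * (((c⁻¹ : Fˣ) : F) ^ D.cartan i s' * (η * t)) = (η * η) * (((c⁻¹ : Fˣ) : F) ^ D.cartan i s' * t) := by ring
          _ = _ := by rw [hη2, one_mul]
      rw [e, ← hG_inv hD hi, h_conj hD hi hs c.ne_zero]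

/-- the torus acts irreducibly on a root group -/
theorem coeffs_bt [Finite F] (hD : InList D) {i r : ℕ} (hi : i < D.rank) (hr : r < D.nroots)
    (hc : (D.cartan i r).natAbs = 1 ∨ (D.cartan i r).natAbs = 2) {M : Subgroup (GL D.Idx F)}
    (hM : D.diagonalSubgroup F ≤ M) : coeffs hD M r = ⊥ ∨ coeffs hD M r = ⊤ := by
  obtain ⟨k, hk⟩ := IsCyclic.exists_generator (α := Fˣ)
  apply Cfsg.Agent.H136.FieldLem.eq_bot_or_top hk
  intro a ha
  have key : ∀ c : Fˣ, (c : F) ^ (D.cartan i r) * a ∈ coeffs hD M r := by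
    intro c
    have h1 := hM (h_mem hD hi c)
    have h2 := M.mul_mem (M.mul_mem h1 ha) (M.inv_mem h1)
    rwa [h_conj hD hi hr c.ne_zero] at h2
  rcases hc with hc | hc
  · rcases Int.natAbs_eq (D.cartan i r) with h | h
    · have := key (k ^ 2)
      rw [h, hc] at this
      simpa using this
    · have := key ((k ^ 2)⁻¹)
      rw [h, hc] at this
      simpa using this
  · rcases Int.natAbs_eq (D.cartan i r) with h | h
    · have := key k
      rw [h, hc] at this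
      exact_mod_cast this
    · have := key k⁻¹
      rw [h, hc] at this
      have e : ((k⁻¹ : Fˣ) : F) ^ (-((2 : ℕ) : ℤ)) = (k : F) ^ 2 := by
        rw [Units.val_inv_eq_inv_val, zpow_neg, inv_zpow, inv_inv]
        exact_mod_cast rfl
      rwa [e] at this

theorem has_of_ne [Finite F] (hD : InList D) {i r : ℕ} (hi : i < D.rank) (hr : r < D.nroots)
    (hc : (D.cartan i r).natAbs = 1 ∨ (D.cartan i r).natAbs = 2) {M : Subgroup (GL D.Idx F)}
    (hM : D.diagonalSubgroup F ≤ M) {s : F} (hs : s ≠ 0) (h : xG hD r s ∈ M) : Has hD M r := by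
  rcases coeffs_bt hD hi hr hc hM with h1 | h1
  · exfalso
    have : s ∈ coeffs hD M r := h
    rw [h1, AddSubgroup.mem_bot] at this
    exact hs this
  · intro t
    have : t ∈ coeffs hD M r := by rw [h1]; exact AddSubgroup.mem_top t
    exact this

/-- one root element -/
theorem one_root [Finite F] (hD : InList D) {l : List ℕ} (hl : ∀ i ∈ l, i < D.rank) {M : Subgroup (GL D.Idx F)}
    (hM : D.diagonalSubgroup F ≤ M) {a a' i j : ℕ} (ha : a < D.nroots) (ha' : a' < D.nroots) (haa : wact D l a' = a)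
    (hi : i < D.rank) (hia : (D.cartan i a).natAbs = 1 ∨ (D.cartan i a).natAbs = 2) (hj : j < D.rank) {c : Fˣ}
    (hjc : (c : F) ^ (D.cartan j a') ≠ 1) (hx : xG hD a (1 : F) * wG hD F l ∈ M) :
    Has hD M a ∧ wG hD F l ∈ M := by
  have h1 := conj_trick hM (w := wG hD F l) (x := xG hD a (1 : F)) (h := hG hD (D.simple j) (c : F))
    (fun x hx => diag_conj hD (wG_mem_monomial hD hl) hx) (h_mem hD hj c) hx
  rw [xG_inv, h_conj hD hj ha c.ne_zero, h2_conj hD hl hj ha' ha haa, xG_add] at h1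
  have hne : (c : F) ^ D.cartan j a * 1 + (c : F) ^ D.cartan j a * (((c⁻¹ : Fˣ) : F) ^ D.cartan j a' * -1) ≠ 0 := by
    intro h0
    have h2 : (c : F) ^ D.cartan j a * (1 - ((c⁻¹ : Fˣ) : F) ^ D.cartan j a') = 0 := by
      rw [← h0]; ring
    rcases mul_eq_zero.1 h2 with h3 | h3
    · exact zpow_ne_zero _ c.ne_zero h3
    · apply hjc
      rw [Units.val_inv_eq_inv_val, inv_zpow] at h3
      exact (inv_eq_one.1 (sub_eq_zero.1 h3).symm)
  have h3 := has_of_ne hD hi ha hia hM hne h1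
  refine ⟨h3, ?_⟩
  have h4 := M.mul_mem (M.inv_mem (h3 1)) hx
  rwa [inv_mul_cancel_left] at h4

/-- two commuting root elements -/
theorem two_roots [Finite F] (hD : InList D) {l : List ℕ} (hl : ∀ i ∈ l, i < D.rank) {M : Subgroup (GL D.Idx F)}
    (hM : D.diagonalSubgroup F ≤ M) {a a' b b' i i2 j j2 : ℕ} (ha : a < D.nroots) (ha' : a' < D.nroots)
    (haa : wact D l a' = a) (hb : b < D.nroots) (hb' : b' < D.nroots) (hbb : wact D l b' = b)
    (hi : i < D.rank) (hia : (D.cartan i a).natAbs = 1 ∨ (D.cartan i a).natAbs = 2)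
    (hi2 : i2 < D.rank) (hib : (D.cartan i2 b).natAbs = 1 ∨ (D.cartan i2 b).natAbs = 2)
    (hj : j < D.rank) {c : Fˣ} (hjc : (c : F) ^ (D.cartan j a') ≠ 1)
    (hj2 : j2 < D.rank) (hj2a : D.cartan j2 a' = 0) {d : Fˣ} (hjd : (d : F) ^ (D.cartan j2 b') ≠ 1)
    (hab : b ≠ a ∧ b ≠ D.neg a ∧ D.commTerms a b = [])
    (hx : xG hD a (1 : F) * xG hD b 1 * wG hD F l ∈ M) :
    Has hD M a ∧ Has hD M b ∧ wG hD F l ∈ M := by
  have hcomm : ∀ t u : F, xG hD b u * xG hD a t = xG hD a t * xG hD b u := fun t u =>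
    commute_of_terms (F := F) hD ha hb hab.1 hab.2.1 hab.2.2 t u
  have h1 := conj_trick hM (w := wG hD F l) (x := xG hD a (1 : F) * xG hD b 1) (h := hG hD (D.simple j2) (d : F))
    (fun x hx => diag_conj hD (wG_mem_monomial hD hl) hx) (h_mem hD hj2 d) hx
  have e1 : ∀ g : GL D.Idx F, g * (xG hD a (1 : F) * xG hD b 1) * g⁻¹ =
      (g * xG hD a 1 * g⁻¹) * (g * xG hD b 1 * g⁻¹) := by intro g; group
  have e2 : ∀ g : GL D.Idx F, g * (xG hD a (1 : F) * xG hD b 1)⁻¹ * g⁻¹ =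
      (g * xG hD b (-1) * g⁻¹) * (g * xG hD a (-1) * g⁻¹) := by
    intro g
    rw [mul_inv_rev, xG_inv, xG_inv]; group
  rw [e1, e2, h_conj hD hj2 ha d.ne_zero, h_conj hD hj2 hb d.ne_zero, h2_conj hD hl hj2 ha' ha haa,
    h2_conj hD hl hj2 hb' hb hbb, hj2a, zpow_zero, one_mul] at h1
  have e3 : xG hD a ((d : F) ^ D.cartan j2 a * 1) * xG hD b ((d : F) ^ D.cartan j2 b * 1) *
      (xG hD b ((d : F) ^ D.cartan j2 b * (((d⁻¹ : Fˣ) : F) ^ D.cartan j2 b' * -1)) *
        xG hD a ((d : F) ^ D.cartan j2 a * -1)) =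
      xG hD b ((d : F) ^ D.cartan j2 b * 1 + (d : F) ^ D.cartan j2 b * (((d⁻¹ : Fˣ) : F) ^ D.cartan j2 b' * -1)) := by
    generalize (d : F) ^ D.cartan j2 a = A
    generalize (d : F) ^ D.cartan j2 b * (((d⁻¹ : Fˣ) : F) ^ D.cartan j2 b' * -1) = C
    generalize (d : F) ^ D.cartan j2 b * 1 = B
    rw [hcomm (A * -1) C]
    calc xG hD a (A * 1) * xG hD b B * (xG hD a (A * -1) * xG hD b C)
        = xG hD a (A * 1) * (xG hD b B * xG hD a (A * -1)) * xG hD b C := by group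
      _ = (xG hD a (A * 1) * xG hD a (A * -1)) * (xG hD b B * xG hD b C) := by rw [hcomm (A * -1) B]; group
      _ = xG hD b (B + C) := by
        rw [xG_add, xG_add]
        have e : A * 1 + A * -1 = 0 := by ring
        rw [e, xG_zero, one_mul]
  rw [e3] at h1
  have hne : (d : F) ^ D.cartan j2 b * 1 + (d : F) ^ D.cartan j2 b * (((d⁻¹ : Fˣ) : F) ^ D.cartan j2 b' * -1) ≠ 0 := by
    intro h0
    have h2 : (d : F) ^ D.cartan j2 b * (1 - ((d⁻¹ : Fˣ) : F) ^ D.cartan j2 b') = 0 := by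
      rw [← h0]; ring
    rcases mul_eq_zero.1 h2 with h3 | h3
    · exact zpow_ne_zero _ d.ne_zero h3
    · apply hjd
      rw [Units.val_inv_eq_inv_val, inv_zpow] at h3
      exact (inv_eq_one.1 (sub_eq_zero.1 h3).symm)
  have hB := has_of_ne hD hi2 hb hib hM hne h1
  have h4 : xG hD a (1 : F) * wG hD F l ∈ M := by
    have h5 := M.mul_mem (hB (-1)) hx
    have e4 : xG hD b (-1 : F) * (xG hD a 1 * xG hD b 1 * wG hD F l) = xG hD a (1 : F) * wG hD F l := by
      rw [← hcomm 1 1, ← xG_inv]; group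
    rwa [e4] at h5
  obtain ⟨hA, hw⟩ := one_root hD hl hM ha ha' haa hi hia hj hjc h4
  exact ⟨hA, hB, hw⟩

/-! ### the torus data -/

/-- the torus -/
theorem diag_le (hD : InList D) : D.diagonalSubgroup F ≤ D.group F := by
  rw [Cfsg.Agent.H135.TorusTab.range_eq hD]
  rintro _ ⟨u, rfl⟩
  rw [Cfsg.Agent.H135.TorusTab.torusHom_eq_prod]
  refine Subgroup.list_prod_mem _ fun x hx => ?_
  rw [List.mem_ofFn] at hx
  obtain ⟨i, rfl⟩ := hx
  rw [← hG_eq_hh hD i.2]
  exact hG_mem_group hD _ _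

theorem card_diag [Fintype F] (hD : InList D) (p : ℕ) [CharP F p] : ¬ p ∣ Nat.card ↥(D.diagonalSubgroup F) := by
  have hp : p.Prime := CharP.char_is_prime F p
  rw [Cfsg.Agent.H135.TorusTab.range_eq hD]
  intro h
  have h1 : Nat.card ↥(Cfsg.Agent.ChevalleyStructure.TorusCount.torusHom D F).range ∣ Nat.card (Fin D.rank → Fˣ) :=
    Subgroup.card_range_dvd _
  have h2 := h.trans h1
  rw [Nat.card_pi, Finset.prod_const, Nat.card_units, Nat.card_eq_fintype_card] at h2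
  have h3 := hp.dvd_of_dvd_pow h2
  have h4 : p ∣ Fintype.card F := (CharP.cast_eq_zero_iff F p _).1 (Nat.cast_card_eq_zero F)
  have h5 : 0 < Fintype.card F := Fintype.card_pos
  have h6 : p ∣ 1 := by
    have := Nat.dvd_sub h4 h3
    have e : Fintype.card F - (Fintype.card F - 1) = 1 := by omega
    rwa [e] at this
  exact hp.one_lt.ne' (Nat.dvd_one.1 h6)

/-- the subgroup `H ⊔ ⟨u w⟩` of the ambient group -/
theorem top_of_le {X : Type*} [Group X] {S : Subgroup X} {H : Subgroup ↥S} {g : ↥S}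
    (h : S ≤ (H ⊔ Subgroup.closure {g}).map S.subtype) : H ⊔ Subgroup.closure {g} = ⊤ := by
  rw [eq_top_iff]
  intro x _
  obtain ⟨y, hy, e⟩ := h x.2
  have : y = x := Subtype.ext e
  rwa [this] at hy

/-- the data from a word and an element `u` -/
theorem tor_of [Fintype F] (hD : InList D) {l : List ℕ} (hl : ∀ i ∈ l, i < D.rank) (p : ℕ) [CharP F p]
    {u : GL D.Idx F} (hu : u ∈ D.group F)
    (hgen : ∀ M : Subgroup (GL D.Idx F), D.diagonalSubgroup F ≤ M → u * wG hD F l ∈ M → D.group F ≤ M)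
    (h2 : p = 2 → u ^ 2 = 1 ∧ u ≠ 1) {i : ℕ} (hi : i < D.rank)
    (hiu : p ≠ 2 → hG hD (D.simple i) (-1 : F) * u = u * hG hD (D.simple i) (-1 : F))
    {s : ℕ} (hs : s < D.nroots) (his : D.cartan i s % 2 ≠ 0) : Tor p ↥(D.group F) := by
  classical
  have hp : p.Prime := CharP.char_is_prime F p
  have hle := diag_le (F := F) hD
  refine ⟨(D.diagonalSubgroup F).subgroupOf (D.group F), ⟨wG hD F l, wG_mem_group hD l⟩, ⟨u, hu⟩, ?_, ?_, ?_, ?_⟩
  · rw [Nat.card_congr (Subgroup.subgroupOfEquivOfLe hle).toEquiv]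
    exact card_diag hD p
  · intro h hh
    rw [Subgroup.mem_subgroupOf] at hh ⊢
    exact diag_conj hD (wG_mem_monomial hD hl) hh
  · apply top_of_le
    apply hgen
    · intro x hx
      exact ⟨⟨x, hle hx⟩, Subgroup.mem_sup_left (Subgroup.mem_subgroupOf.2 hx), rfl⟩
    · exact ⟨⟨u, hu⟩ * ⟨wG hD F l, wG_mem_group hD l⟩, Subgroup.mem_sup_right (Subgroup.subset_closure rfl), rfl⟩
  · by_cases hp2 : p = 2
    · obtain ⟨h3, h4⟩ := h2 hp2
      exact Or.inl ⟨hp2, Subtype.ext h3, fun h => h4 (congrArg Subtype.val h)⟩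
    · refine Or.inr ⟨⟨hG hD (D.simple i) (-1 : F), hG_mem_group hD _ _⟩, ?_, ?_, Subtype.ext (hiu hp2)⟩
      · rw [Subgroup.mem_subgroupOf]
        exact h_mem hD hi (-1)
      · intro h
        have h3 : hG hD (D.simple i) (-1 : F) = 1 := congrArg Subtype.val h
        have h4 := h_conj (F := F) hD hi hs (c := -1) (neg_ne_zero.2 one_ne_zero) 1
        rw [h3, one_mul, inv_one, mul_one] at h4
        have h5 := xG_injective hD hs h4
        have h6 : Odd (D.cartan i s) := Int.odd_iff.2 (by omega)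
        rw [h6.neg_one_zpow, mul_one] at h5
        have : CharP F 2 := by
          apply CharTwo.of_one_ne_zero_of_two_eq_zero one_ne_zero
          rw [← one_add_one_eq_two]
          nth_rewrite 1 [h5]
          ring
        exact hp2 (CharP.eq F ‹_› this)

theorem neg_comm (hD : InList D) {i a : ℕ} (hi : i < D.rank) (ha : a < D.nroots) (he : D.cartan i a % 2 = 0) (t : F) :
    hG hD (D.simple i) (-1 : F) * xG hD a t = xG hD a t * hG hD (D.simple i) (-1 : F) := by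
  have h4 := h_conj (F := F) hD hi ha (c := -1) (neg_ne_zero.2 one_ne_zero) t
  have h6 : Even (D.cartan i a) := Int.even_iff.2 he
  rw [h6.neg_one_zpow, one_mul] at h4
  exact mul_inv_eq_iff_eq_mul.1 h4

theorem sq_root [CharP F 2] (hD : InList D) {a : ℕ} : (xG hD a (1 : F)) ^ 2 = 1 := by
  rw [pow_two, xG_add]
  have h2 : (1 : F) + 1 = 0 := by
    have := CharP.cast_eq_zero F 2
    rw [← one_add_one_eq_two] at this
    exact_mod_cast this
  rw [h2, xG_zero]

theorem root_ne (hD : InList D) {a : ℕ} (ha : a < D.nroots) {t : F} (ht : t ≠ 0) : xG hD a t ≠ 1 := by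
  intro h
  rw [← xG_zero hD a] at h
  exact ht (xG_injective hD ha h)

open Cfsg.Agent.ChevalleyStructure in
theorem eq_of_xG (hD : InList D) {r s : ℕ} (hr : r < D.nroots) (hs : s < D.nroots) {t u : F} (ht : t ≠ 0)
    (h : xG hD r t = xG hD s u) : r = s := by
  by_contra hrs
  have h2 := congrArg (fun g : GL D.Idx F => (g : Matrix D.Idx D.Idx F) (Sum.inr ⟨r, hr⟩)
    (Sum.inr ⟨D.neg r, NPerm.neg_lt hD hr⟩)) h
  simp only [coe_xG] at h2
  rw [NPerm.x_entry_self hD hr, NPerm.x_entry_ne hD hr hs (fun h => hrs h.symm)] at h2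
  simp [ht] at h2

/-- one root -/
theorem tor_one [Fintype F] (hD : InList D) (p : ℕ) [CharP F p] (hq : 3 ≤ Fintype.card F) {l : List ℕ}
    (hl : ∀ i ∈ l, i < D.rank) {W : ℕ → ℕ} (hW : ∀ s < D.nroots, W s = wact D l s) {a a' i j k s : ℕ}
    (ha : a < D.nroots) (ha' : a' < D.nroots) (haa : W a' = a) (hi : i < D.rank)
    (hia : (D.cartan i a).natAbs = 1 ∨ (D.cartan i a).natAbs = 2) (hj : j < D.rank)
    (hja : (D.cartan j a').natAbs = 1) (hk : k < D.rank) (hka : D.cartan k a % 2 = 0) (hs : s < D.nroots)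
    (hks : D.cartan k s % 2 ≠ 0) {steps : List (ℕ × ℕ)} (hrun : run D W (1 <<< a) steps = 2 ^ D.nroots - 1) :
    Tor p ↥(D.group F) := by
  obtain ⟨c, hc⟩ : ∃ c : Fˣ, c ≠ 1 := by
    by_contra hcon
    push Not at hcon
    have : Nat.card Fˣ = 1 := Nat.card_eq_one_iff_unique.2 ⟨⟨fun a b => by rw [hcon a, hcon b]⟩, ⟨1⟩⟩
    rw [Nat.card_units, Nat.card_eq_fintype_card] at this
    omega
  refine tor_of hD hl p (u := xG hD a (1 : F)) (xG_mem_group hD _ _) (fun M hM hx => ?_) (fun h2 => ?_) hk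
    (fun _ => neg_comm hD hk ha hka 1) hs hks
  · have hjc : (c : F) ^ (D.cartan j a') ≠ 1 := by
      rcases Int.natAbs_eq (D.cartan j a') with h | h
      · rw [h, hja]; simpa using hc
      · rw [h, hja]; simpa using hc
    obtain ⟨hA, hw⟩ := one_root hD hl hM ha ha' (by rw [← hW a' ha', haa]) hi hia hj hjc hx
    refine group_le_of_run hl hW hw (S := 1 <<< a) ?_ hrun
    intro r hr
    rw [Nat.one_shiftLeft, Nat.testBit_two_pow] at hr
    have : a = r := by simpa using hr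
    exact this ▸ hA
  · subst h2
    exact ⟨sq_root hD, root_ne hD ha one_ne_zero⟩

/-- two roots -/
theorem tor_two [Fintype F] (hD : InList D) (p : ℕ) [CharP F p] {l : List ℕ}
    (hl : ∀ i ∈ l, i < D.rank) {W : ℕ → ℕ} (hW : ∀ s < D.nroots, W s = wact D l s) {a a' b b' i i2 j j2 k s : ℕ}
    (ha : a < D.nroots) (ha' : a' < D.nroots) (haa : W a' = a) (hb : b < D.nroots) (hb' : b' < D.nroots)
    (hbb : W b' = b) (hi : i < D.rank)
    (hia : (D.cartan i a).natAbs = 1 ∨ (D.cartan i a).natAbs = 2) (hi2 : i2 < D.rank)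
    (hib : (D.cartan i2 b).natAbs = 1 ∨ (D.cartan i2 b).natAbs = 2) (hj : j < D.rank)
    {c : Fˣ} (hjc : (c : F) ^ (D.cartan j a') ≠ 1)
    (hj2 : j2 < D.rank) (hj2a : D.cartan j2 a' = 0) {d : Fˣ} (hjd : (d : F) ^ (D.cartan j2 b') ≠ 1)
    (hab : b ≠ a ∧ b ≠ D.neg a ∧ D.commTerms a b = [])
    (hk : k < D.rank) (hka : D.cartan k a % 2 = 0) (hkb : D.cartan k b % 2 = 0) (hs : s < D.nroots)
    (hks : D.cartan k s % 2 ≠ 0) {steps : List (ℕ × ℕ)}
    (hrun : run D W ((1 <<< a) ||| (1 <<< b)) steps = 2 ^ D.nroots - 1) :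
    Tor p ↥(D.group F) := by
  have hcomm : ∀ t u : F, xG hD b u * xG hD a t = xG hD a t * xG hD b u := fun t u =>
    commute_of_terms (F := F) hD ha hb hab.1 hab.2.1 hab.2.2 t u
  refine tor_of hD hl p (u := xG hD a (1 : F) * xG hD b 1) (mul_mem (xG_mem_group hD _ _) (xG_mem_group hD _ _))
    (fun M hM hx => ?_) (fun h2 => ?_) hk
    (fun _ => ?_) hs hks
  · obtain ⟨hA, hB, hw⟩ := two_roots hD hl hM ha ha' (by rw [← hW a' ha', haa]) hb hb' (by rw [← hW b' hb', hbb])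
      hi hia hi2 hib hj hjc hj2 hj2a hjd hab hx
    refine group_le_of_run hl hW hw (S := (1 <<< a) ||| (1 <<< b)) ?_ hrun
    intro r hr
    rcases testBit_insert hr with h | rfl
    · rw [Nat.one_shiftLeft, Nat.testBit_two_pow] at h
      have : a = r := by simpa using h
      exact this ▸ hA
    · exact hB
  · subst h2
    constructor
    · rw [(show Commute (xG hD a (1 : F)) (xG hD b 1) from (hcomm 1 1).symm).mul_pow, sq_root, sq_root, one_mul]
    · intro h
      have h3 : xG hD a (1 : F) = xG hD b (-1) := by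
        rw [← xG_inv]
        exact eq_inv_of_mul_eq_one_left h
      exact hab.1 (eq_of_xG hD ha hb one_ne_zero h3).symm
  · rw [← mul_assoc, neg_comm hD hk ha hka, mul_assoc, neg_comm hD hk hb hkb, mul_assoc]

end Cfsg.Agent.H288.DG.Untw
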