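import Cfsg.Agent.H288.DG.UntwSmall

/-!
# TEAM GEN: `CohAt` for `G₂(q)`, `F₄(q)`, `E₆(q)`, `E₇(q)`, `E₈(q)` in the defining characteristic (helper288, for S4180)
-/

set_option autoImplicit false
set_option linter.unusedSectionVars false

namespace Cfsg.Agent.H288.DG.UntwRow

open Cfsg.Lie Cfsg.Agent.H891.DG Cfsg.Agent.H288.DG Cfsg.Agent.H288.DG.UntwTab Cfsg.Agent.H288.DG.UntwSmall

universe u v

variable {T : Type u} [Group T] [Finite T] [IsSimpleGroup T] {F : Type v} [Field F] [Fintype F]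

theorem two_elements (h : Fintype.card F = 2) (p : ℕ) [CharP F p] : (∀ x : F, x = 0 ∨ x = 1) ∧ p = 2 := by
  classical
  have h1 : ∀ x : F, x = 0 ∨ x = 1 := by
    intro x
    by_contra hcon
    push Not at hcon
    have h4 : ({0, 1, x} : Finset F).card ≤ 2 := by rw [← h]; exact Finset.card_le_univ _
    rw [Finset.card_insert_of_notMem, Finset.card_insert_of_notMem, Finset.card_singleton] at h4
    · omega
    · rw [Finset.mem_singleton]; exact fun h => hcon.2 h.symm
    · simp only [Finset.mem_insert, Finset.mem_singleton, not_or]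
      exact ⟨zero_ne_one, fun h => hcon.1 h.symm⟩
  refine ⟨h1, ?_⟩
  have h3 : p ∣ Fintype.card F := (CharP.cast_eq_zero_iff F p _).1 (Nat.cast_card_eq_zero F)
  rw [h] at h3
  exact (Nat.prime_dvd_prime_iff_eq (CharP.char_is_prime F p) Nat.prime_two).1 h3

/-- **G₂(q)**, `q ≥ 3` -/
theorem cohAt_g2 (hna : ¬ IsMulCommutative T) (e : T ≃* ↥(chevG2.group F)) (hq : 3 ≤ Fintype.card F) (p : ℕ)
    [CharP F p] : CohAt p T := by
  have hp : p.Prime := CharP.char_is_prime F p
  rcases hq.eq_or_lt with h | h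
  · exact coh_of_invGen hna ((invG2 h.symm).congr e.symm) p hp
  · exact cohAt_of_tor hp ((torG2 (F := F) p h).congr e.symm)

/-- **F₄(q)** -/
theorem cohAt_f4 (hna : ¬ IsMulCommutative T) (e : T ≃* ↥(chevF4.group F)) (p : ℕ) [CharP F p] : CohAt p T := by
  have hp : p.Prime := CharP.char_is_prime F p
  have hq : 2 ≤ Fintype.card F := Fintype.one_lt_card
  rcases hq.eq_or_lt with h | h
  · obtain ⟨h1, rfl⟩ := two_elements h.symm p
    exact coh_of_invGen hna ((invF4 h1).congr e.symm) 2 hp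
  · exact cohAt_of_tor hp ((torF4 (F := F) p h).congr e.symm)

/-- **E₆(q)** -/
theorem cohAt_e6 (hna : ¬ IsMulCommutative T) (e : T ≃* ↥(chevE6.group F)) (p : ℕ) [CharP F p] : CohAt p T := by
  have hp : p.Prime := CharP.char_is_prime F p
  have hq : 2 ≤ Fintype.card F := Fintype.one_lt_card
  rcases hq.eq_or_lt with h | h
  · obtain ⟨h1, rfl⟩ := two_elements h.symm p
    exact coh_of_invGen hna ((invE6 h1).congr e.symm) 2 hp
  · exact cohAt_of_tor hp ((torE6 (F := F) p h).congr e.symm)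

/-- **E₇(q)** -/
theorem cohAt_e7 (hna : ¬ IsMulCommutative T) (e : T ≃* ↥(chevE7.group F)) (p : ℕ) [CharP F p] : CohAt p T := by
  have hp : p.Prime := CharP.char_is_prime F p
  have hq : 2 ≤ Fintype.card F := Fintype.one_lt_card
  rcases hq.eq_or_lt with h | h
  · obtain ⟨h1, rfl⟩ := two_elements h.symm p
    exact coh_of_invGen hna ((invE7 h1).congr e.symm) 2 hp
  · exact cohAt_of_tor hp ((torE7 (F := F) p h).congr e.symm)

/-- **E₈(q)** -/
theorem cohAt_e8 (hna : ¬ IsMulCommutative T) (e : T ≃* ↥(chevE8.group F)) (p : ℕ) [CharP F p] : CohAt p T := by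
  have hp : p.Prime := CharP.char_is_prime F p
  have hq : 2 ≤ Fintype.card F := Fintype.one_lt_card
  rcases hq.eq_or_lt with h | h
  · obtain ⟨h1, rfl⟩ := two_elements h.symm p
    exact coh_of_invGen hna ((invE8 h1).congr e.symm) 2 hp
  · exact cohAt_of_tor hp ((torE8 (F := F) p h).congr e.symm)

end Cfsg.Agent.H288.DG.UntwRow
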