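import Cfsg.Agent.H288.DG.UntwTab

/-!
# TEAM GEN: `F₄(2)` and `G₂(3)` are generated by an involution and another element (helper288, for S4180)
-/

set_option autoImplicit false
set_option linter.unusedSectionVars false

namespace Cfsg.Agent.H288.DG.UntwSmall

open Cfsg.Lie Cfsg.Agent.ChevalleyStructure.Elts Cfsg.Agent.H135.TwoG Cfsg.Agent.H288.DG Cfsg.Agent.H288.DG.Untw
open Cfsg.Agent.ChevalleyStructure.W0Small (tabG2 tabG2_ok tabF4 tabF4_ok)

universe u

variable {F : Type u} [Field F]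

theorem invGen_ambient {X : Type*} [Group X] {S : Subgroup X} {c b : X} (hc : c ∈ S) (hb : b ∈ S) (h2 : c ^ 2 = 1)
    (h1 : c ≠ 1) (h : ∀ M : Subgroup X, c ∈ M → b ∈ M → S ≤ M) : InvGen ↥S := by
  refine ⟨⟨c, hc⟩, ⟨b, hb⟩, Subtype.ext h2, fun h => h1 (congrArg Subtype.val h), ?_⟩
  rw [eq_top_iff]
  intro x _
  obtain ⟨y, hy, e⟩ := h ((Subgroup.closure ({⟨c, hc⟩, ⟨b, hb⟩} : Set ↥S)).map S.subtype)
    ⟨_, Subgroup.subset_closure (Set.mem_insert _ _), rfl⟩
    ⟨_, Subgroup.subset_closure (Set.mem_insert_of_mem _ rfl), rfl⟩ x.2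
  have : y = x := Subtype.ext e
  rwa [this] at hy

/-! ### `F₄(2)` -/

theorem comm_one {G : Type*} [Group G] {a b x y : G} (hax : a * x = x * a) (hay : a * y = y * a)
    (hbx : b * x = x * b) : (a * b)⁻¹ * (x * y)⁻¹ * (a * b) * (x * y) = b⁻¹ * y⁻¹ * b * y := by
  have h1 : (a * b) * (x * y) = a * x * (b * y) := by
    calc (a * b) * (x * y) = a * (b * x) * y := by group
      _ = a * x * (b * y) := by rw [hbx]; group
  have h2 : (x * y) * (a * b) = a * x * (y * b) := by
    calc (x * y) * (a * b) = x * (y * a) * b := by group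
      _ = (x * a) * y * b := by rw [← hay]; group
      _ = a * x * (y * b) := by rw [← hax]; group
  calc (a * b)⁻¹ * (x * y)⁻¹ * (a * b) * (x * y) = ((x * y) * (a * b))⁻¹ * ((a * b) * (x * y)) := by group
    _ = b⁻¹ * y⁻¹ * b * y := by rw [h1, h2]; group

/-- closure steps, type F4, first part -/
def steps1F4 : List (ℕ × ℕ) :=
  [(7, 7), (8, 8), (18, 18), (34, 34), (37, 37), (44, 44), (40, 40), (39, 39), (29, 29), (13, 13), (10, 10), (3, 37),
  (11, 11), (33, 33), (27, 27), (35, 35), (38, 38), (28, 28), (36, 36), (14, 14), (20, 20), (12, 12), (9, 9)]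

/-- closure steps, type F4, second part -/
def steps2F4 : List (ℕ × ℕ) :=
  [(0, 0), (15, 15), (21, 21), (41, 41), (45, 45), (46, 46), (47, 47), (32, 32), (26, 26), (6, 6), (2, 2), (0, 32),
  (5, 5), (17, 17), (4, 4), (16, 16), (22, 22), (23, 23), (42, 42), (30, 30), (43, 43), (31, 31), (25, 25)]

theorem invF4 [CharP F 2] (hF : ∀ x : F, x = 0 ∨ x = 1) : InvGen ↥(chevF4.group F) := by
  have hD : InList chevF4 := by simp
  have hl : ∀ i ∈ [0, 1, 2, 3], i < chevF4.rank := by decide +kernel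
  have hW := wT_eq hD tabF4_ok hl
  have hneg : (-1 : F) = 1 := by
    rcases hF (-1) with h | h
    · exact absurd h (neg_ne_zero.2 one_ne_zero)
    · exact h
  have cm : ∀ {r s : ℕ}, r < 48 → s < 48 → (s ≠ r ∧ s ≠ chevF4.neg r ∧ chevF4.commTerms r s = []) →
      xG hD s (1 : F) * xG hD r 1 = xG hD r 1 * xG hD s 1 := fun hr hs h =>
    commute_of_terms hD hr hs h.1 h.2.1 h.2.2 1 1
  have cj : ∀ s < 48, wG hD F [0, 1, 2, 3] * xG hD s (1 : F) * (wG hD F [0, 1, 2, 3])⁻¹ =
      xG hD (wT tabF4 [0, 1, 2, 3] s) 1 := by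
    intro s hs
    obtain ⟨η, hη, h⟩ := wG_conj (F := F) hD hl hs
    rw [h, hW s hs]
    rcases hη with rfl | rfl
    · rw [one_mul]
    · rw [mul_one, hneg]
  have h09 := cm (r := 0) (s := 9) (by norm_num) (by norm_num) (by decide +kernel)
  refine invGen_ambient (c := xG hD 0 (1 : F) * xG hD 9 1) (b := wG hD F [0, 1, 2, 3])
    (mul_mem (xG_mem_group hD _ _) (xG_mem_group hD _ _)) (wG_mem_group hD _) ?_ ?_ (fun M hc hw => ?_)
  · rw [(show Commute (xG hD 0 (1 : F)) (xG hD 9 1) from h09.symm).mul_pow, sq_root, sq_root, one_mul]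
  · intro h
    have h3 : xG hD 0 (1 : F) = xG hD 9 (-1) := by
      rw [← xG_inv]
      exact eq_inv_of_mul_eq_one_left h
    exact absurd (eq_of_xG hD (by decide +kernel) (by decide +kernel) one_ne_zero h3) (by norm_num)
  · -- the commutator
    have e0 : wG hD F [0, 1, 2, 3] * (xG hD 0 (1 : F) * xG hD 9 1) * (wG hD F [0, 1, 2, 3])⁻¹ =
        xG hD 15 1 * xG hD 19 1 := by
      have h1 := cj 0 (by norm_num)
      have h2 := cj 9 (by norm_num)
      have w0 : wT tabF4 [0, 1, 2, 3] 0 = 15 := by decide +kernel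
      have w9 : wT tabF4 [0, 1, 2, 3] 9 = 19 := by decide +kernel
      rw [w0] at h1
      rw [w9] at h2
      rw [← h1, ← h2]; group
    have hc1 : xG hD 15 (1 : F) * xG hD 19 1 ∈ M := by
      rw [← e0]
      exact mul_mem (mul_mem hw hc) (inv_mem hw)
    have e1 := comm_one (a := xG hD 0 (1 : F)) (b := xG hD 9 1) (x := xG hD 15 1) (y := xG hD 19 1)
      (cm (r := 0) (s := 15) (by norm_num) (by norm_num) (by decide +kernel)).symm
      (cm (r := 0) (s := 19) (by norm_num) (by norm_num) (by decide +kernel)).symm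
      (cm (r := 9) (s := 15) (by norm_num) (by norm_num) (by decide +kernel)).symm
    have e2 : (xG hD 9 (1 : F))⁻¹ * (xG hD 19 1)⁻¹ * xG hD 9 1 * xG hD 19 1 ∈ M := by
      rw [← e1]
      exact mul_mem (mul_mem (mul_mem (inv_mem hc) (inv_mem hc1)) hc) hc1
    have e3 := comm_word (F := F) hD (r := 9) (s := 19) (by decide +kernel) (by decide +kernel) (by norm_num)
      (by decide +kernel) 1 1
    have e4 : chevF4.commWord F 9 19 1 1 = [(7, 1)] := by
      show (chevF4.commTerms 9 19).map _ = _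
      have : chevF4.commTerms 9 19 = [(7, -1, 1, 1)] := by decide +kernel
      rw [this]
      simp
    rw [e4, wordG_cons, wordG_nil, mul_one] at e3
    have e5 : xG hD 7 (1 : F) ∈ M := by
      have e6 : xG hD 7 (1 : F) = ((xG hD 9 (1 : F))⁻¹ * (xG hD 19 1)⁻¹ * xG hD 9 1 * xG hD 19 1)⁻¹ := by
        calc xG hD 7 (1 : F) = (xG hD 9 1 * xG hD 19 1)⁻¹ * (xG hD 9 1 * xG hD 19 1 * xG hD 7 1) := by group
          _ = (xG hD 9 1 * xG hD 19 1)⁻¹ * (xG hD 19 1 * xG hD 9 1) := by rw [← e3]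
          _ = _ := by group
      rw [e6]
      exact inv_mem e2
    have hS1 := run_sound (hD := hD) hl hW hw steps1F4 (S := 1 <<< 7) (by
      intro k hk
      rw [Nat.one_shiftLeft, Nat.testBit_two_pow] at hk
      have : 7 = k := by simpa using hk
      exact this ▸ has_of_one hF e5)
    have h9 : Has hD M 9 := hS1 9 (by decide +kernel)
    have h0 : Has hD M 0 := has_of_one hF (by
      have h3 := M.mul_mem hc (M.inv_mem (h9 1))
      rwa [mul_inv_cancel_right] at h3)
    refine group_le_of_run hl hW hw (S := run chevF4 (wT tabF4 [0, 1, 2, 3]) (1 <<< 7) steps1F4 ||| (1 <<< 0)) ?_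
      (steps := steps2F4) (by decide +kernel)
    intro r hr
    rcases testBit_insert hr with h | rfl
    · exact hS1 r h
    · exact h0

/-! ### `G₂(3)` -/

theorem three_step {G : Type*} [Group G] {M : Subgroup G} {h w x y : G} (hx : x ^ 3 = 1) (hy : y ^ 3 = 1)
    (hxy : x * y = y * x) (h1 : h * x * h⁻¹ = x⁻¹) (h2 : h * y * h⁻¹ = y⁻¹)
    (h3 : (w * h * w⁻¹) * x * (w * h * w⁻¹)⁻¹ = x⁻¹) (h4 : (w * h * w⁻¹) * y * (w * h * w⁻¹)⁻¹ = y)
    (h5 : (w * (w * h * w⁻¹) * w⁻¹) * y * (w * (w * h * w⁻¹) * w⁻¹)⁻¹ = y⁻¹)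
    (h6 : h * (w * h * w⁻¹) = (w * h * w⁻¹) * h)
    (h7 : h * (w * (w * h * w⁻¹) * w⁻¹) = (w * (w * h * w⁻¹) * w⁻¹) * h) (mh : h ∈ M) (mg : x * y * w ∈ M) :
    x ∈ M ∧ y ∈ M ∧ w ∈ M := by
  have key : ∀ z k : G, z ^ 3 = 1 → h * z * h⁻¹ = z⁻¹ → h * k = k * h → k * z * k⁻¹ = z⁻¹ → z * k * z⁻¹ ∈ M →
      z ∈ M ∧ k ∈ M := by
    intro z k hz hzh hk hkz hm
    have e1 : z * k * z⁻¹ = z * z * k := by
      have : k * z⁻¹ = z * k := by
        rw [mul_inv_eq_iff_eq_mul] at hkz
        calc k * z⁻¹ = z * (z⁻¹ * k) * z⁻¹ := by group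
          _ = z * (k * z) * z⁻¹ := by rw [hkz]
          _ = z * k := by group
      rw [mul_assoc, this, ← mul_assoc]
    rw [e1] at hm
    have e2 : h * (z * z * k) * h⁻¹ * (z * z * k)⁻¹ = z⁻¹ * z⁻¹ * z⁻¹ * z⁻¹ := by
      calc h * (z * z * k) * h⁻¹ * (z * z * k)⁻¹ = (h * z * h⁻¹) * (h * z * h⁻¹) * (h * k) * h⁻¹ * k⁻¹ * z⁻¹ * z⁻¹ := by
            group
        _ = z⁻¹ * z⁻¹ * z⁻¹ * z⁻¹ := by rw [hzh, hk]; group
    have e3 : z⁻¹ * z⁻¹ * z⁻¹ * z⁻¹ = z⁻¹ := by
      have : z⁻¹ * z⁻¹ * z⁻¹ = 1 := by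
        calc z⁻¹ * z⁻¹ * z⁻¹ = (z ^ 3)⁻¹ := by group
          _ = 1 := by rw [hz, inv_one]
      rw [this, one_mul]
    have mz : z ∈ M := by
      have h8 := M.mul_mem (M.mul_mem (M.mul_mem mh hm) (M.inv_mem mh)) (M.inv_mem hm)
      rw [e2, e3] at h8
      exact (M.inv_mem_iff).1 h8
    refine ⟨mz, ?_⟩
    have h8 := M.mul_mem (M.mul_mem (M.inv_mem mz) (M.inv_mem mz)) hm
    have e4 : z⁻¹ * z⁻¹ * (z * z * k) = k := by group
    rwa [e4] at h8
  -- step 1
  have s1 : x * (w * h * w⁻¹) * x⁻¹ ∈ M := by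
    have h8 := M.mul_mem (M.mul_mem mg mh) (M.inv_mem mg)
    have e : x * y * w * h * (x * y * w)⁻¹ = x * (w * h * w⁻¹) * x⁻¹ := by
      have e1 : y * (w * h * w⁻¹) * y⁻¹ = w * h * w⁻¹ := by
        rw [mul_inv_eq_iff_eq_mul] at h4 ⊢
        exact h4.symm
      calc x * y * w * h * (x * y * w)⁻¹ = x * (y * (w * h * w⁻¹) * y⁻¹) * x⁻¹ := by group
        _ = _ := by rw [e1]
    rwa [e] at h8
  obtain ⟨mx, mh'⟩ := key x _ hx h1 h6 h3 s1
  have mg2 : y * w ∈ M := by
    have h8 := M.mul_mem (M.inv_mem mx) mg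
    have e : x⁻¹ * (x * y * w) = y * w := by group
    rwa [e] at h8
  have s2 : y * (w * (w * h * w⁻¹) * w⁻¹) * y⁻¹ ∈ M := by
    have h8 := M.mul_mem (M.mul_mem mg2 mh') (M.inv_mem mg2)
    have e : y * w * (w * h * w⁻¹) * (y * w)⁻¹ = y * (w * (w * h * w⁻¹) * w⁻¹) * y⁻¹ := by group
    rwa [e] at h8
  obtain ⟨my, -⟩ := key y _ hy h2 h7 h5 s2
  refine ⟨mx, my, ?_⟩
  have h8 := M.mul_mem (M.inv_mem my) mg2
  rwa [inv_mul_cancel_left] at h8

/-- closure steps, type G2 -/
def steps3G2 : List (ℕ × ℕ) :=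
  [(1, 1), (0, 0), (2, 2), (3, 3), (5, 5), (7, 7), (9, 9), (8, 8), (10, 10), (11, 11)]

/-- conjugating a torus element by the word -/
theorem conj_torus {D : ChevalleyDatum} (hD : InList D) {l : List ℕ} (hl : ∀ i ∈ l, i < D.rank) {s s' : ℕ}
    (hs' : s' < D.nroots) (hss : wact D l s' = s) {k : GL D.Idx F} {ε : F}
    (hk : ∀ t : F, k * xG hD s' t * k⁻¹ = xG hD s' (ε * t)) (t : F) :
    (wG hD F l * k * (wG hD F l)⁻¹) * xG hD s t * (wG hD F l * k * (wG hD F l)⁻¹)⁻¹ = xG hD s (ε * t) := by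
  obtain ⟨η, hη, hwc0⟩ := wG_conj (F := F) hD hl hs'
  have hη2 : η * η = 1 := sq_one hη
  rw [hss] at hwc0
  have hwc' : (wG hD F l)⁻¹ * xG hD s t * wG hD F l = xG hD s' (η * t) := by
    have h := hwc0 (η * t)
    rw [← mul_assoc, hη2, one_mul] at h
    rw [← h]; group
  calc (wG hD F l * k * (wG hD F l)⁻¹) * xG hD s t * (wG hD F l * k * (wG hD F l)⁻¹)⁻¹
      = wG hD F l * (k * ((wG hD F l)⁻¹ * xG hD s t * wG hD F l) * k⁻¹) * (wG hD F l)⁻¹ := by group
    _ = _ := by
      rw [hwc', hk, hwc0]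
      congr 1
      calc η * (ε * (η * t)) = (η * η) * (ε * t) := by ring
        _ = _ := by rw [hη2, one_mul]

theorem invG2 [Fintype F] (hF : Fintype.card F = 3) : InvGen ↥(chevG2.group F) := by
  have hD : InList chevG2 := by simp
  have hl : ∀ i ∈ [0, 1], i < chevG2.rank := by decide +kernel
  have hW := wT_eq hD tabG2_ok hl
  have h3 : (3 : F) = 0 := by
    have := Nat.cast_card_eq_zero F
    rw [hF] at this
    exact_mod_cast this
  have hx3 : ∀ s, (xG hD s (1 : F)) ^ 3 = 1 := by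
    intro s
    rw [pow_succ, pow_two, xG_add, xG_add]
    have : (1 : F) + 1 + 1 = 0 := by
      rw [← h3]; norm_num
    rw [this, xG_zero]
  set h := hG hD (chevG2.simple 0) (-1 : F) with hh
  set w := wG hD F [0, 1] with hw
  have hm1 : ((-1 : Fˣ) : F) = -1 := by simp
  have hhd : h ∈ chevG2.diagonalSubgroup F := by
    have := h_mem (F := F) hD (i := 0) (by decide +kernel) (-1)
    rwa [hm1] at this
  have hwN : w ∈ chevG2.monomialSubgroup F := wG_mem_monomial hD hl
  have hc : ∀ s < 12, ∀ t : F, h * xG hD s t * h⁻¹ = xG hD s ((-1) ^ (chevG2.cartan 0 s) * t) := fun s hs t =>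
    h_conj hD (by decide +kernel) hs (neg_ne_zero.2 one_ne_zero) t
  have ho : ∀ s < 12, chevG2.cartan 0 s % 2 ≠ 0 → ∀ t : F, h * xG hD s t * h⁻¹ = xG hD s (-1 * t) := by
    intro s hs ho t
    rw [hc s hs]
    have h6 : Odd (chevG2.cartan 0 s) := Int.odd_iff.2 (by omega)
    rw [h6.neg_one_zpow]
  have he : ∀ s < 12, chevG2.cartan 0 s % 2 = 0 → ∀ t : F, h * xG hD s t * h⁻¹ = xG hD s (1 * t) := by
    intro s hs ho t
    rw [hc s hs]
    have h6 : Even (chevG2.cartan 0 s) := Int.even_iff.2 (by omega)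
    rw [h6.neg_one_zpow]
  have wa : ∀ {s' s : ℕ}, s' < 12 → wT tabG2 [0, 1] s' = s → wact chevG2 [0, 1] s' = s := fun h1 h2 => by
    rw [← hW _ h1]; exact h2
  have i1 : ∀ s, (xG hD s (1 : F))⁻¹ = xG hD s (-1 * 1) := fun s => by rw [xG_inv, mul_one]
  have hd1 := diag_conj (F := F) hD hwN hhd
  have hd2 := diag_conj (F := F) hD hwN hd1
  have h12 := commute_of_terms (F := F) hD (r := 1) (s := 2) (by decide +kernel) (by decide +kernel) (by norm_num)
    (by decide +kernel) (by decide +kernel) 1 1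
  refine invGen_ambient (c := h) (b := xG hD 1 (1 : F) * xG hD 2 1 * w) (hG_mem_group hD _ _)
    (mul_mem (mul_mem (xG_mem_group hD _ _) (xG_mem_group hD _ _)) (wG_mem_group hD _)) ?_ ?_ (fun M mh mg => ?_)
  · rw [hh, ← hm1, hG_eq_hh hD (by decide +kernel), ← map_pow, neg_one_sq, map_one]
  · intro h1
    have h4 := ho 1 (by norm_num) (by decide +kernel) 1
    rw [h1, one_mul, inv_one, mul_one] at h4
    have h5 := xG_injective hD (by decide +kernel) h4
    have h6 : (2 : F) = 0 := by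
      rw [← one_add_one_eq_two]
      nth_rewrite 1 [h5]
      ring
    have h7 : (1 : F) = 3 - 2 := by norm_num
    rw [h3, h6, sub_zero] at h7
    exact one_ne_zero h7
  · obtain ⟨mx, my, mw⟩ := three_step (M := M) (h := h) (w := w) (x := xG hD 1 (1 : F)) (y := xG hD 2 1)
      (hx3 1) (hx3 2) h12.symm
      (by rw [i1]; exact ho 1 (by norm_num) (by decide +kernel) 1)
      (by rw [i1]; exact ho 2 (by norm_num) (by decide +kernel) 1)
      (by rw [i1]; exact conj_torus hD hl (s' := 6) (by decide +kernel) (wa (by norm_num) (by decide +kernel))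
            (ho 6 (by norm_num) (by decide +kernel)) 1)
      (by
        have := conj_torus (F := F) hD hl (s := 2) (s' := 4) (by decide +kernel) (wa (by norm_num) (by decide +kernel))
            (he 4 (by norm_num) (by decide +kernel)) 1
        rwa [one_mul] at this)
      (by
        rw [i1]
        refine conj_torus hD hl (s' := 4) (by decide +kernel) (wa (by norm_num) (by decide +kernel)) ?_ 1
        exact conj_torus hD hl (s' := 8) (by decide +kernel) (wa (by norm_num) (by decide +kernel))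
          (ho 8 (by norm_num) (by decide +kernel)))
      (diag_comm hD hhd hd1) (diag_comm hD hhd hd2) mh mg
    have hcases : ∀ t : F, t = 0 ∨ t = 1 ∨ t = -1 := by
      intro t
      classical
      by_contra hcon
      push Not at hcon
      have h4 : ({0, 1, -1, t} : Finset F).card ≤ 3 := by rw [← hF]; exact Finset.card_le_univ _
      have h5 : (1 : F) ≠ -1 := by
        intro h6
        have h7 : (2 : F) = 0 := by
          rw [← one_add_one_eq_two]
          nth_rewrite 1 [h6]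
          ring
        have h8 : (1 : F) = 3 - 2 := by norm_num
        rw [h3, h7, sub_zero] at h8
        exact one_ne_zero h8
      rw [Finset.card_insert_of_notMem, Finset.card_insert_of_notMem, Finset.card_insert_of_notMem,
        Finset.card_singleton] at h4
      · omega
      · rw [Finset.mem_singleton]; exact fun h => hcon.2.2 h.symm
      · simp only [Finset.mem_insert, Finset.mem_singleton, not_or]
        exact ⟨h5, fun h => hcon.2.1 h.symm⟩
      · simp only [Finset.mem_insert, Finset.mem_singleton, not_or]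
        exact ⟨zero_ne_one, (neg_ne_zero.2 one_ne_zero).symm, fun h => hcon.1 h.symm⟩
    have has : ∀ s, xG hD s (1 : F) ∈ M → Has hD M s := by
      intro s hs t
      rcases hcases t with rfl | rfl | rfl
      · rw [xG_zero]; exact M.one_mem
      · exact hs
      · rw [← xG_inv]; exact M.inv_mem hs
    refine group_le_of_run hl hW mw (S := (1 <<< 1) ||| (1 <<< 2)) ?_ (steps := steps3G2) (by decide +kernel)
    intro r hr
    rcases testBit_insert hr with h | rfl
    · rw [Nat.one_shiftLeft, Nat.testBit_two_pow] at h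
      have : 1 = r := by simpa using h
      exact this ▸ has 1 mx
    · exact has 2 my

end Cfsg.Agent.H288.DG.UntwSmall
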