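import Cfsg.Agent.H288.DG.Untw

/-!
# TEAM GEN: the torus data of `G₂(q)`, `F₄(q)`, `E₆(q)`, `E₇(q)`, `E₈(q)` (helper288, for S4180)
-/

set_option autoImplicit false
set_option linter.unusedSectionVars false

namespace Cfsg.Agent.H288.DG.UntwTab

open Cfsg.Lie Cfsg.Agent.ChevalleyStructure.Elts Cfsg.Agent.H135.TwoG Cfsg.Agent.H288.DG Cfsg.Agent.H288.DG.Untw
open Cfsg.Agent.ChevalleyStructure.W0Small (tabG2 tabG2_ok tabF4 tabF4_ok)
open Cfsg.Agent.ChevalleyStructure.W0E6 (tabE6 tabE6_ok)
open Cfsg.Agent.ChevalleyStructure.W0E7 (tabE7 tabE7_ok)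
open Cfsg.Agent.ChevalleyStructure.W0E8 (tabE8 tabE8_ok)

universe u

variable {F : Type u} [Field F] [Fintype F]

theorem torE6 (p : ℕ) [CharP F p] (hq : 3 ≤ Fintype.card F) : Tor p ↥(chevE6.group F) :=
  tor_one (D := chevE6) (by simp) p hq (l := [0, 1, 2, 3, 4, 5]) (by decide +kernel)
    (W := wT tabE6 [0, 1, 2, 3, 4, 5]) (wT_eq (by simp) tabE6_ok (by decide +kernel)) (a := 2) (a' := 7) (i := 2)
    (j := 2) (k := 0) (s := 7) (by decide +kernel) (by decide +kernel) (by decide +kernel) (by decide +kernel)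
    (by decide +kernel) (by decide +kernel) (by decide +kernel) (by decide +kernel) (by decide +kernel)
    (by decide +kernel) (by decide +kernel) (steps := twoStepsE6) (by decide +kernel)

theorem torE7 (p : ℕ) [CharP F p] (hq : 3 ≤ Fintype.card F) : Tor p ↥(chevE7.group F) :=
  tor_one (D := chevE7) (by simp) p hq (l := [0, 1, 2, 3, 4, 5, 6]) (by decide +kernel)
    (W := wT tabE7 [0, 1, 2, 3, 4, 5, 6]) (wT_eq (by simp) tabE7_ok (by decide +kernel)) (a := 3) (a' := 10) (i := 1)
    (j := 1) (k := 0) (s := 0) (by decide +kernel) (by decide +kernel) (by decide +kernel) (by decide +kernel)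
    (by decide +kernel) (by decide +kernel) (by decide +kernel) (by decide +kernel) (by decide +kernel)
    (by decide +kernel) (by decide +kernel) (steps := twoStepsE7) (by decide +kernel)

theorem torE8 (p : ℕ) [CharP F p] (hq : 3 ≤ Fintype.card F) : Tor p ↥(chevE8.group F) :=
  tor_one (D := chevE8) (by simp) p hq (l := [0, 1, 2, 3, 4, 5, 6, 7]) (by decide +kernel)
    (W := wT tabE8 [0, 1, 2, 3, 4, 5, 6, 7]) (wT_eq (by simp) tabE8_ok (by decide +kernel)) (a := 0) (a' := 1)
    (i := 7) (j := 7) (k := 0) (s := 6) (by decide +kernel) (by decide +kernel) (by decide +kernel)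
    (by decide +kernel) (by decide +kernel) (by decide +kernel) (by decide +kernel) (by decide +kernel)
    (by decide +kernel) (by decide +kernel) (by decide +kernel) (steps := twoStepsE8) (by decide +kernel)

/-- a unit different from `1` -/
theorem exists_unit (hq : 3 ≤ Fintype.card F) : ∃ c : Fˣ, (c : F) ≠ 1 := by
  by_contra hcon
  push Not at hcon
  have : Nat.card Fˣ = 1 := Nat.card_eq_one_iff_unique.2
    ⟨⟨fun a b => Units.ext (by rw [hcon a, hcon b])⟩, ⟨1⟩⟩
  rw [Nat.card_units, Nat.card_eq_fintype_card] at this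
  omega

theorem exists_unit_sq (hq : 4 ≤ Fintype.card F) : ∃ c : Fˣ, (c : F) ^ 2 ≠ 1 := by
  obtain ⟨k, hk⟩ := IsCyclic.exists_generator (α := Fˣ)
  refine ⟨k, fun h => ?_⟩
  have h1 : k ^ 2 = 1 := Units.ext (by rw [Units.val_pow_eq_pow_val, h, Units.val_one])
  have h2 : orderOf k = Fintype.card F - 1 := by
    rw [orderOf_eq_card_of_forall_mem_zpowers hk, Nat.card_units, Nat.card_eq_fintype_card]
  have h3 := orderOf_dvd_of_pow_eq_one h1
  rw [h2] at h3
  have := Nat.le_of_dvd (by norm_num) h3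
  omega

/-- closure steps, type G2 -/
def stepsG2 : List (ℕ × ℕ) := [(6, 6), (1, 1), (0, 0), (5, 5), (9, 9), (8, 8), (4, 4), (2, 2), (3, 3), (10, 10)]

theorem torG2 (p : ℕ) [CharP F p] (hq : 4 ≤ Fintype.card F) : Tor p ↥(chevG2.group F) := by
  obtain ⟨c, hc⟩ := exists_unit (F := F) (by omega)
  obtain ⟨d, hd⟩ := exists_unit_sq (F := F) hq
  have e1 : chevG2.cartan 1 11 = 1 := by decide +kernel
  have e2 : chevG2.cartan 0 7 = 2 := by decide +kernel
  exact tor_two (D := chevG2) (by simp) p (l := [0, 1]) (by decide +kernel)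
    (W := wT tabG2 [0, 1]) (wT_eq (by simp) tabG2_ok (by decide +kernel)) (a := 6) (a' := 11) (b := 9) (b' := 7)
    (i := 1) (i2 := 0) (j := 1) (j2 := 0) (k := 1) (s := 0) (by decide +kernel) (by decide +kernel)
    (by decide +kernel) (by decide +kernel) (by decide +kernel) (by decide +kernel) (by decide +kernel)
    (by decide +kernel) (by decide +kernel) (by decide +kernel) (by decide +kernel)
    (c := c) (by rw [e1, zpow_one]; exact hc) (by decide +kernel) (by decide +kernel)
    (d := d) (by rw [e2]; exact_mod_cast hd) (by decide +kernel) (by decide +kernel) (by decide +kernel)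
    (by decide +kernel) (by decide +kernel) (by decide +kernel) (steps := stepsG2) (by decide +kernel)

/-- closure steps, type F4 -/
def stepsF4 : List (ℕ × ℕ) :=
  [(1, 1), (0, 0), (8, 8), (15, 15), (18, 18), (21, 21), (34, 34), (37, 37), (41, 41), (44, 44), (40, 40), (39, 39),
  (29, 29), (13, 13), (10, 10), (3, 3), (45, 45), (46, 46), (47, 47), (32, 32), (26, 26), (6, 6), (0, 32), (5, 5),
  (17, 17), (4, 4), (16, 16), (22, 22), (23, 23), (42, 42), (30, 30), (43, 43), (31, 31), (25, 25), (0, 39), (9, 9),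
  (19, 19), (11, 11), (33, 33), (27, 27), (35, 35), (38, 38), (28, 28), (36, 36), (14, 14), (20, 20)]

theorem torF4 (p : ℕ) [CharP F p] (hq : 3 ≤ Fintype.card F) : Tor p ↥(chevF4.group F) := by
  obtain ⟨c, hc⟩ := exists_unit (F := F) hq
  have e1 : chevF4.cartan 2 2 = 1 := by decide +kernel
  have e2 : chevF4.cartan 0 7 = 1 := by decide +kernel
  exact tor_two (D := chevF4) (by simp) p (l := [0, 1, 2, 3]) (by decide +kernel)
    (W := wT tabF4 [0, 1, 2, 3]) (wT_eq (by simp) tabF4_ok (by decide +kernel)) (a := 1) (a' := 2) (b := 8) (b' := 7)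
    (i := 2) (i2 := 1) (j := 2) (j2 := 0) (k := 0) (s := 3) (by decide +kernel) (by decide +kernel)
    (by decide +kernel) (by decide +kernel) (by decide +kernel) (by decide +kernel) (by decide +kernel)
    (by decide +kernel) (by decide +kernel) (by decide +kernel) (by decide +kernel)
    (c := c) (by rw [e1, zpow_one]; exact hc) (by decide +kernel) (by decide +kernel)
    (d := c) (by rw [e2, zpow_one]; exact hc) (by decide +kernel) (by decide +kernel) (by decide +kernel)
    (by decide +kernel) (by decide +kernel) (by decide +kernel) (steps := stepsF4) (by decide +kernel)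

/-! ### the field with two elements -/

theorem invGen_of [CharP F 2] {D : ChevalleyDatum} (hD : InList D) (hF : ∀ x : F, x = 0 ∨ x = 1) {l : List ℕ}
    (hl : ∀ i ∈ l, i < D.rank) {W : ℕ → ℕ} (hW : ∀ s < D.nroots, W s = wact D l s) {a : ℕ} (ha : a < D.nroots)
    {steps : List (ℕ × ℕ)} (hrun : run D W (1 <<< a) steps = 2 ^ D.nroots - 1) : InvGen ↥(D.group F) := by
  refine ⟨⟨xG hD a 1, xG_mem_group hD _ _⟩, ⟨wG hD F l, wG_mem_group hD _⟩, Subtype.ext (sq_root hD),
    fun h => root_ne hD ha one_ne_zero (congrArg Subtype.val h), ?_⟩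
  rw [eq_top_iff]
  intro x _
  set M := (Subgroup.closure ({⟨xG hD a 1, xG_mem_group hD _ _⟩, ⟨wG hD F l, wG_mem_group hD _⟩} :
    Set ↥(D.group F))).map (D.group F).subtype with hM
  have m1 : xG hD a (1 : F) ∈ M := ⟨_, Subgroup.subset_closure (Set.mem_insert _ _), rfl⟩
  have m2 : wG hD F l ∈ M := ⟨_, Subgroup.subset_closure (Set.mem_insert_of_mem _ rfl), rfl⟩
  have h1 : D.group F ≤ M := by
    refine group_le_of_run (hD := hD) hl hW m2 (S := 1 <<< a) ?_ hrun
    intro k hk
    rw [Nat.one_shiftLeft, Nat.testBit_two_pow] at hk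
    have : a = k := by simpa using hk
    exact this ▸ has_of_one hF m1
  obtain ⟨y, hy, e⟩ := h1 x.2
  have : y = x := Subtype.ext e
  rwa [this] at hy

theorem invE6 [CharP F 2] (hF : ∀ x : F, x = 0 ∨ x = 1) : InvGen ↥(chevE6.group F) :=
  invGen_of (D := chevE6) (by simp) hF (l := [0, 1, 2, 3, 4, 5]) (by decide +kernel)
    (W := wT tabE6 [0, 1, 2, 3, 4, 5]) (wT_eq (by simp) tabE6_ok (by decide +kernel)) (a := 2) (by decide +kernel)
    (steps := twoStepsE6) (by decide +kernel)

theorem invE7 [CharP F 2] (hF : ∀ x : F, x = 0 ∨ x = 1) : InvGen ↥(chevE7.group F) :=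
  invGen_of (D := chevE7) (by simp) hF (l := [0, 1, 2, 3, 4, 5, 6]) (by decide +kernel)
    (W := wT tabE7 [0, 1, 2, 3, 4, 5, 6]) (wT_eq (by simp) tabE7_ok (by decide +kernel)) (a := 3) (by decide +kernel)
    (steps := twoStepsE7) (by decide +kernel)

theorem invE8 [CharP F 2] (hF : ∀ x : F, x = 0 ∨ x = 1) : InvGen ↥(chevE8.group F) :=
  invGen_of (D := chevE8) (by simp) hF (l := [0, 1, 2, 3, 4, 5, 6, 7]) (by decide +kernel)
    (W := wT tabE8 [0, 1, 2, 3, 4, 5, 6, 7]) (wT_eq (by simp) tabE8_ok (by decide +kernel)) (a := 0)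
    (by decide +kernel) (steps := twoStepsE8) (by decide +kernel)

end Cfsg.Agent.H288.DG.UntwTab
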